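import Cfsg.Agent.Lib.SLn.PSL2Class
import Cfsg.Agent.Lib.ClassGraph.Basic

/-!
# `PSL₂(2^m)` has exactly three noncentral class sizes
-/

set_option autoImplicit false
set_option linter.unusedSectionVars false
set_option linter.unusedVariables false

namespace Cfsg.Agent.Lib.Rank3.Reverse

open Matrix
open Cfsg.Agent.Lib.GL2.SL2 Cfsg.Agent.Lib.GL2.SL2Classes Cfsg.Agent.Lib.SLn.Basic
open Cfsg.Agent.Lib.SLn.SL2PSL Cfsg.Agent.Lib.SLn.PSL2Class
open Cfsg.Agent.Lib.Classical.SL2Tori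

variable {F : Type*} [Field F] [Fintype F]

/-- Arithmetic. -/
theorem arith1 {q i : ℕ} (hq : 4 ≤ q) (h : i * (q - 1) = q * (q ^ 2 - 1)) : i = q * (q + 1) := by
  obtain ⟨s, rfl⟩ : ∃ s, q = s + 1 := ⟨q - 1, by omega⟩
  have e : (s + 1) ^ 2 - 1 = s * (s + 2) := by
    have : (s + 1) ^ 2 = s * (s + 2) + 1 := by ring
    omega
  rw [e, Nat.add_sub_cancel] at h
  have hs : 0 < s := by omega
  apply Nat.eq_of_mul_eq_mul_right hs
  rw [h]
  ring

theorem arith2 {q i : ℕ} (hq : 4 ≤ q) (h : i * (q + 1) = q * (q ^ 2 - 1)) : i = q * (q - 1) := by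
  obtain ⟨s, rfl⟩ : ∃ s, q = s + 1 := ⟨q - 1, by omega⟩
  have e : (s + 1) ^ 2 - 1 = s * (s + 2) := by
    have : (s + 1) ^ 2 = s * (s + 2) + 1 := by ring
    omega
  rw [e] at h
  rw [Nat.add_sub_cancel]
  apply Nat.eq_of_mul_eq_mul_right (show 0 < s + 1 + 1 by omega)
  rw [h]
  ring

theorem arith3 {q i : ℕ} (hq : 4 ≤ q) (h : i * q = q * (q ^ 2 - 1)) : i = q ^ 2 - 1 := by
  apply Nat.eq_of_mul_eq_mul_right (show 0 < q by omega)
  rw [h]
  ring

theorem distinct {q : ℕ} (hq : 4 ≤ q) :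
    q ^ 2 - 1 ≠ q * (q + 1) ∧ q ^ 2 - 1 ≠ q * (q - 1) ∧ q * (q + 1) ≠ q * (q - 1) := by
  obtain ⟨s, rfl⟩ : ∃ s, q = s + 1 := ⟨q - 1, by omega⟩
  have e : (s + 1) ^ 2 - 1 = s * (s + 2) := by
    have : (s + 1) ^ 2 = s * (s + 2) + 1 := by ring
    omega
  rw [e, Nat.add_sub_cancel]
  have e2 : (s + 1) * (s + 1 + 1) = s * (s + 2) + (s + 2) := by ring
  have e3 : (s + 1) * s = s * (s + 2) - s := by
    have : s * (s + 2) = (s + 1) * s + s := by ring
    omega
  have hs : 0 < s := by omega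
  have h4 : s ≤ s * (s + 2) := Nat.le_mul_of_pos_right _ (by omega)
  have hmm : 0 < s * (s + 2) := Nat.mul_pos hs (by omega)
  refine ⟨?_, ?_, ?_⟩
  · rw [e2]
    omega
  · rw [e3]
    omega
  · rw [e2, e3]
    omega

theorem two_zero {m : ℕ} (h : Fintype.card F = 2 ^ m) (hm : m ≠ 0) : (2 : F) = 0 := by
  have h1 : ((Fintype.card F : ℕ) : F) = 0 := Nat.cast_card_eq_zero F
  rw [h] at h1
  push_cast at h1
  exact pow_eq_zero_iff hm |>.1 h1

theorem card_sq_one (h2 : (2 : F) = 0) : Nat.card {a : F // a ^ 2 = 1} = 1 := by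
  apply Nat.card_eq_one_iff_unique.2
  refine ⟨⟨?_⟩, ⟨⟨1, one_pow 2⟩⟩⟩
  have key : ∀ a : F, a ^ 2 = 1 → a = 1 := by
    intro a ha
    have : (a - 1) ^ 2 = 0 := by
      have e : (a - 1) ^ 2 = a ^ 2 - 2 * a + 1 := by ring
      rw [e, ha, h2]
      have : (1 : F) + 1 = 0 := by
        have e2 : (1 : F) + 1 = 2 := by norm_num
        rw [e2, h2]
      rw [zero_mul, sub_zero, this]
    exact sub_eq_zero.1 (pow_eq_zero_iff two_ne_zero |>.1 this)
  rintro ⟨a, ha⟩ ⟨b, hb⟩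
  apply Subtype.ext
  simp [key a ha, key b hb]

theorem index_cases (h2 : (2 : F) = 0) (hq : 4 ≤ Fintype.card F) (G₀ : SL2 F) (hG : toPSL G₀ ≠ 1) :
    (Subgroup.centralizer ({toPSL G₀} : Set (Matrix.ProjectiveSpecialLinearGroup (Fin 2) F))).index
      = Fintype.card F ^ 2 - 1 ∨
    (Subgroup.centralizer ({toPSL G₀} : Set (Matrix.ProjectiveSpecialLinearGroup (Fin 2) F))).index
      = Fintype.card F * (Fintype.card F + 1) ∨
    (Subgroup.centralizer ({toPSL G₀} : Set (Matrix.ProjectiveSpecialLinearGroup (Fin 2) F))).index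
      = Fintype.card F * (Fintype.card F - 1) := by
  have hidx := index_mul_card G₀ (Or.inr h2)
  by_cases h4 : (tr G₀) ^ 2 = 4
  · left
    rw [card_C_of_sq G₀ hG h4, card_sq_one h2, one_mul] at hidx
    exact arith3 hq hidx
  · by_cases hr : ∃ r : F, r ^ 2 - tr G₀ * r + 1 = 0
    · right; left
      obtain ⟨r, hr⟩ := hr
      rw [card_C_of_root G₀ h4 hr] at hidx
      exact arith1 hq hidx
    · right; right
      push Not at hr
      rw [card_C_of_no_root G₀ hr] at hidx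
      exact arith2 hq hidx

/-- The size `q² - 1`. -/
theorem index_uu (h2 : (2 : F) = 0) (hq : 4 ≤ Fintype.card F) :
    (Subgroup.centralizer ({toPSL (uu (1 : F))} : Set (Matrix.ProjectiveSpecialLinearGroup (Fin 2) F))).index
      = Fintype.card F ^ 2 - 1 := by
  have hidx := index_mul_card (uu (1 : F)) (Or.inr h2)
  have hG : toPSL (uu (1 : F)) ≠ 1 := by
    rw [Ne, toPSL_eq_one_iff]
    rintro ⟨c, hc⟩
    have := congrFun (congrFun hc 0) 1
    simp [uu] at this
  have h4 : (tr (uu (1 : F))) ^ 2 = 4 := by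
    have e : tr (uu (1 : F)) = 2 := by
      simp [tr, uu]
      norm_num
    rw [e]
    norm_num
  rw [card_C_of_sq _ hG h4, card_sq_one h2, one_mul] at hidx
  exact arith3 hq hidx

/-- The size `q (q + 1)`. -/
theorem exists_index_split (h2 : (2 : F) = 0) (hq : 4 ≤ Fintype.card F) :
    ∃ G₀ : SL2 F, (Subgroup.centralizer ({toPSL G₀} : Set (Matrix.ProjectiveSpecialLinearGroup (Fin 2) F))).index
      = Fintype.card F * (Fintype.card F + 1) := by
  classical
  obtain ⟨a, ha, ha2⟩ : ∃ a : F, a ≠ 0 ∧ a ^ 2 ≠ 1 := by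
    obtain ⟨a, ha⟩ : ∃ a : F, a ∉ ({0, 1} : Finset F) := by
      by_contra hno
      push Not at hno
      have h1 : (Finset.univ : Finset F) ⊆ {0, 1} := fun a _ => hno a
      have h3 := Finset.card_le_card h1
      have h4 : ({0, 1} : Finset F).card ≤ 2 := Finset.card_le_two
      rw [Finset.card_univ] at h3
      omega
    simp only [Finset.mem_insert, Finset.mem_singleton, not_or] at ha
    refine ⟨a, ha.1, fun h3 => ha.2 ?_⟩
    have := (Nat.card_eq_one_iff_unique.1 (card_sq_one h2)).1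
    have h5 : (⟨a, h3⟩ : {a : F // a ^ 2 = 1}) = ⟨1, one_pow 2⟩ := Subsingleton.elim _ _
    exact congrArg Subtype.val h5
  let x : Fˣ := Units.mk0 a ha
  refine ⟨diagHom x, ?_⟩
  have hidx := index_mul_card (diagHom x) (Or.inr h2)
  rw [card_C_diag x (by simpa [x] using ha2)] at hidx
  exact arith1 hq hidx

/-- The size `q (q - 1)`. -/
theorem exists_index_nonsplit (h2 : (2 : F) = 0) (hq : 4 ≤ Fintype.card F) :
    ∃ G₀ : SL2 F, (Subgroup.centralizer ({toPSL G₀} : Set (Matrix.ProjectiveSpecialLinearGroup (Fin 2) F))).index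
      = Fintype.card F * (Fintype.card F - 1) := by
  classical
  have hex : ∃ t : F, ∀ r : Fˣ, (r : F) + ((r⁻¹ : Fˣ) : F) ≠ t := by
    by_contra hno
    push Not at hno
    have hs : Function.Surjective (fun r : Fˣ => (r : F) + ((r⁻¹ : Fˣ) : F)) := hno
    have h1 := Fintype.card_le_of_surjective _ hs
    rw [Fintype.card_units] at h1
    omega
  obtain ⟨t, ht⟩ := hex
  let G₀ : SL2 F := ⟨!![0, 1; -1, t], by simp [det_fin_two]⟩
  have htr : tr G₀ = t := by simp [tr, G₀]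
  refine ⟨G₀, ?_⟩
  have hidx := index_mul_card G₀ (Or.inr h2)
  have hr : ∀ r : F, r ^ 2 - tr G₀ * r + 1 ≠ 0 := by
    intro r hr
    rw [htr] at hr
    by_cases hr0 : r = 0
    · rw [hr0] at hr
      simp at hr
    · apply ht (Units.mk0 r hr0)
      simp only [Units.val_mk0, Units.val_inv_eq_inv_val]
      field_simp
      linear_combination hr
  rw [card_C_of_no_root G₀ hr] at hidx
  exact arith2 hq hidx

/-- The set of noncentral class sizes of `PSL₂(2^m)`. -/
theorem ncard_sizes {m : ℕ} (h : Fintype.card F = 2 ^ m) (hm : 2 ≤ m) :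
    Set.ncard {n : ℕ | ∃ x : Matrix.ProjectiveSpecialLinearGroup (Fin 2) F,
      x ∉ Subgroup.center (Matrix.ProjectiveSpecialLinearGroup (Fin 2) F) ∧
        n = (Subgroup.centralizer ({x} : Set (Matrix.ProjectiveSpecialLinearGroup (Fin 2) F))).index} = 3 := by
  have h2 : (2 : F) = 0 := two_zero h (by omega)
  have hq : 4 ≤ Fintype.card F := by
    rw [h]
    calc 4 = 2 ^ 2 := by norm_num
      _ ≤ 2 ^ m := Nat.pow_le_pow_right (by norm_num) hm
  obtain ⟨d1, d2, d3⟩ := distinct hq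
  rw [Set.ncard_eq_three]
  refine ⟨_, _, _, d1, d2, d3, ?_⟩
  have hq1 : ∀ n : ℕ, n = Fintype.card F ^ 2 - 1 ∨ n = Fintype.card F * (Fintype.card F + 1) ∨
      n = Fintype.card F * (Fintype.card F - 1) → n ≠ 1 := by
    rintro n (rfl | rfl | rfl)
    · have : 4 ^ 2 ≤ Fintype.card F ^ 2 := Nat.pow_le_pow_left hq 2
      omega
    · have : 4 * 5 ≤ Fintype.card F * (Fintype.card F + 1) := Nat.mul_le_mul hq (by omega)
      omega
    · have : 4 * 3 ≤ Fintype.card F * (Fintype.card F - 1) := Nat.mul_le_mul hq (by omega)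
      omega
  have hnc : ∀ x : Matrix.ProjectiveSpecialLinearGroup (Fin 2) F,
      (Subgroup.centralizer ({x} : Set (Matrix.ProjectiveSpecialLinearGroup (Fin 2) F))).index ≠ 1 →
      x ∉ Subgroup.center (Matrix.ProjectiveSpecialLinearGroup (Fin 2) F) := by
    intro x hx hc
    exact hx (Cfsg.Agent.Lib.ClassGraph.Basic.cs_eq_one_iff.2 hc)
  ext n
  simp only [Set.mem_ofPred_eq, Set.mem_insert_iff, Set.mem_singleton_iff]
  constructor
  · rintro ⟨x, hx, rfl⟩
    obtain ⟨G₀, rfl⟩ := toPSL_surjective x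
    apply index_cases h2 hq
    rintro h1
    rw [h1] at hx
    exact hx (Subgroup.one_mem _)
  · rintro (rfl | rfl | rfl)
    · refine ⟨_, hnc _ ?_, (index_uu h2 hq).symm⟩
      rw [index_uu h2 hq]
      exact hq1 _ (Or.inl rfl)
    · obtain ⟨G₀, hG₀⟩ := exists_index_split h2 hq
      refine ⟨_, hnc _ ?_, hG₀.symm⟩
      rw [hG₀]
      exact hq1 _ (Or.inr (Or.inl rfl))
    · obtain ⟨G₀, hG₀⟩ := exists_index_nonsplit h2 hq
      refine ⟨_, hnc _ ?_, hG₀.symm⟩
      rw [hG₀]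
      exact hq1 _ (Or.inr (Or.inr rfl))

end Cfsg.Agent.Lib.Rank3.Reverse
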